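import Cfsg.Agent.H298.UThree.FourB
import Cfsg.Agent.H337.UThreeFinTwo

/-!
# S3314 for `|E| ≥ 4`

The argument for a simple layer follows `Cfsg.Agent.H298.UThree.Hyp.false_of_layer`; the case `|E ∩ L| ≥ 4`
is done with the strongly closed subgroup `E ∩ L` (Goldschmidt, Bender), so that `Z(K) = 1` is not needed.
-/

set_option autoImplicit false

namespace Cfsg.Agent.H337.UThreeFour

open Cfsg.Agent.SignalizersComponents
open Subgroup Cfsg.Agent.LieRecognition Cfsg.Agent.LieRecognition.HermHeis Cfsg.Agent.OddHalf.D4.Basic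
open Cfsg.Agent.OddHalf.D4.CommConj (cj mem_cj cj_mul card_cj cj_eq_of_mem_normalizer mem_normalizer_of_cj_eq
  mem_cj_mul)
open Cfsg.Agent.OddHalf.D4.U3.ParDefs
open Cfsg.Agent.H298.UThree Cfsg.Agent.H298.UThree.Act

universe u v w

variable {G : Type u} [Group G] [Finite G] {E K : Subgroup G} {F : Type v} [Field F] [Fintype F] {n : ℕ}

theorem three_dvd (h : Hyp E K F n) : 3 ∣ Nat.card ↥K := by
  obtain ⟨e⟩ := h.iso
  have h1 := Cfsg.Agent.StdU3.FinalRed.three_dvd_psu h.hF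
  rw [← Nat.card_congr e.toEquiv] at h1
  exact h1.trans (Subgroup.card_quotient_dvd_card _)

/-- no involution of `PSU₃(q)` centralises `K` -/
theorem false_of_psu (h : Hyp E K F n) {L : Subgroup G} {F' : Type w} [Field F'] [Fintype F'] [CharP F' 2]
    {σ : F' →+* F'} [hσ : Fact (∀ x, σ (σ x) = x)] {m : ℕ} (p : Par L σ m) (a : Amb L) (hKL : K ≤ L) {e : G}
    (he : e ∈ E) (heL : e ∈ L) (he1 : e ≠ 1) : False := by
  have hee := h.c.sq e he
  obtain ⟨k, hk, hle⟩ := p.exists_cj_le (T := zpowers e) (zpowers_two (Two.of_sq hee)) (by rwa [zpowers_le])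
  have hz : k * e * k⁻¹ ∈ p.S := hle (mem_cj_mul (mem_zpowers e))
  have hzZ : k * e * k⁻¹ ∈ p.Z := p.mem_Z_of_sq hz (by
    have e1 : k * e * k⁻¹ * (k * e * k⁻¹) = k * (e * e) * k⁻¹ := by group
    rw [e1, hee]; group)
  have hz1 : k * e * k⁻¹ ≠ 1 := fun h1 => he1 (conj_eq_one_iff.mp h1)
  have key : ∀ y ∈ K, Two y → k * y * k⁻¹ ∈ p.S := by
    intro y hy h2
    refine a.two_mem p hzZ hz1 (mul_mem (mul_mem hk (hKL hy)) (inv_mem hk)) ?_ (h2.conj k)
    have h3 := h.c.Kc e he y hy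
    calc k * y * k⁻¹ * (k * e * k⁻¹) = k * (y * e) * k⁻¹ := by group
      _ = k * (e * y) * k⁻¹ := by rw [h3]
      _ = k * e * k⁻¹ * (k * y * k⁻¹) := by group
  let Q : Subgroup ↥K := (cj k⁻¹ p.S).subgroupOf K
  have hQ : ∀ y : ↥K, y ∈ Q ↔ k * (y : G) * k⁻¹ ∈ p.S := by
    intro y
    show (y : G) ∈ cj k⁻¹ p.S ↔ _
    rw [mem_cj, inv_inv]
  have hQ2 : IsPGroup 2 ↥Q := (p.S_two.map (MulAut.conj k⁻¹).toMonoidHom).comap_subtype
  have hQn : Q.Normal := by
    refine ⟨fun y hy g => ?_⟩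
    rw [hQ]
    apply key _ (g * y * g⁻¹).2
    have h3 : Two (y : G) := by
      obtain ⟨j, hj⟩ := hQ2 ⟨y, hy⟩
      exact ⟨j, congrArg (fun z : ↥Q => ((z : ↥K) : G)) hj⟩
    exact h3.conj (g : G)
  rcases Cfsg.Agent.Lib.ComponentSolvable.quasisimple_normal_cases h.c.qs hQn with h1 | h1
  · have h2 : IsPGroup 2 ↥K := by
      intro y
      have h3 : y ∈ Q := by rw [h1]; trivial
      obtain ⟨j, hj⟩ := hQ2 ⟨y, h3⟩
      exact ⟨j, congrArg Subtype.val hj⟩
    haveI : Fact (Nat.Prime 2) := ⟨Nat.prime_two⟩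
    obtain ⟨j, hj⟩ := h2.exists_card_eq
    have h3 := three_dvd h
    rw [hj] at h3
    have h4 := Nat.prime_three.dvd_of_dvd_pow h3
    omega
  · obtain ⟨P, hP, -⟩ := exists_isSyl (M := K) (Q := ⊥) (IsPGroup.of_bot) bot_le
    obtain ⟨x, hx, y, hy, hxy⟩ := h.not_comm hP
    apply hxy
    have h2 : (⟨x, hP.le hx⟩ : ↥K) ∈ center ↥K := by
      apply h1
      rw [hQ]
      exact key x (hP.le hx) (Two.of_mem hP.two hx)
    exact (congrArg Subtype.val (Subgroup.mem_center_iff.mp h2 ⟨y, hP.le hy⟩)).symm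

/-- **the case of a simple group** -/
theorem false_of_simple (h : Hyp E K F n) (h4 : ∃ e ∈ E, ∃ f ∈ E, e ≠ 1 ∧ f ≠ 1 ∧ e ≠ f) [hs : IsSimpleGroup G] :
    False := by
  obtain ⟨S, hS⟩ := h.strongly_closed_of_four h4
  haveI : Fact (Nat.Prime 2) := ⟨Nat.prime_two⟩
  obtain ⟨e, he, he1⟩ := h.c.ne
  obtain ⟨P, hP, -⟩ := exists_isSyl (M := K) (Q := ⊥) (IsPGroup.of_bot) bot_le
  obtain ⟨x, hx, y, hy, hxy⟩ := h.not_comm hP
  have hncS : ∀ S : Sylow 2 G, ¬ IsMulCommutative (S : Subgroup G) := by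
    intro S hc
    obtain ⟨T, hT⟩ := hP.two.exists_le_sylow
    have e1 : ↥(T : Subgroup G) ≃* ↥(S : Subgroup G) := Sylow.equiv T S
    have h1 := hc.is_comm.comm (e1 ⟨x, hT hx⟩) (e1 ⟨y, hT hy⟩)
    rw [← map_mul, ← map_mul] at h1
    exact hxy (congrArg Subtype.val (e1.injective h1))
  rcases Cfsg.Agent.S1169.result S E (by
      rintro rfl
      exact he1 (mem_bot.mp he)) ⟨⟨fun a b => Subtype.ext (h.c.E_comm a.2 b.2)⟩⟩ hS with h1 | ⟨H, hH⟩
  · exact hncS S h1
  · rcases Cfsg.Agent.S0222.result ⟨x, y, hxy⟩ H hH with ⟨F', _, _, hc, h4', ⟨f⟩⟩ | h1 | ⟨F', _, _, q, hq, hev, hq4, ⟨f⟩⟩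
    · exact hncS S (Cfsg.Agent.Classification.PSLTwoEvenSylow.sylow_comm f S)
    · have h2 := (three_dvd h).trans (Subgroup.card_subgroup_dvd_card K)
      exact Cfsg.Agent.StdU3.EndLie.not_three_dvd_suzuki h1 h2
    · have f' : ↥(⊤ : Subgroup G) ≃* Cfsg.PSU 3 F' q := Subgroup.topEquiv.trans f
      obtain ⟨m, _, σ, _, -, -, ⟨p⟩⟩ := exists_par_of_psu hq hev hq4 ⟨f'⟩
      refine false_of_psu h p ⟨fun _ _ _ => mem_top _, fun z hx => ?_⟩ le_top he (mem_top e) he1
      have h5 : z ∈ center G := by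
        rw [Subgroup.mem_center_iff]
        exact fun g => (hx g (mem_top g)).symm
      rcases hs.eq_bot_or_eq_top_of_normal (center G) inferInstance with h6 | h6
      · rwa [h6, mem_bot] at h5
      · exfalso
        have h7 : y ∈ center G := by rw [h6]; trivial
        exact hxy (Subgroup.mem_center_iff.mp h7 x)

/-- **the case of a simple layer, `|E| ≥ 4`** -/
theorem false_of_layer (h : Hyp E K F n) (h4 : ∃ e ∈ E, ∃ f ∈ E, e ≠ 1 ∧ f ≠ 1 ∧ e ≠ f)
    {L : Subgroup G} (hLn : L.Normal)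
    (hLs : IsSimpleGroup ↥L) (hna : ¬ IsMulCommutative ↥L) (hC : centralizer (L : Set G) = ⊥) (hKL : K ≤ L) :
    False := by
  by_cases hA : ∃ e ∈ E, e ∈ L ∧ e ≠ 1
  · obtain ⟨e, he, heL, he1⟩ := hA
    have h' := h.sub hKL ⟨e, he, heL, he1⟩
    by_cases hB : ∃ f ∈ E, f ∈ L ∧ f ≠ 1 ∧ f ≠ e
    · obtain ⟨f, hf, hfL, hf1, hfe⟩ := hB
      refine false_of_simple h' ⟨⟨e, heL⟩, mem_subgroupOf.mpr he, ⟨f, hfL⟩, mem_subgroupOf.mpr hf, ?_, ?_, ?_⟩
      · exact fun h1 => he1 (congrArg Subtype.val h1)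
      · exact fun h1 => hf1 (congrArg Subtype.val h1)
      · exact fun h1 => hfe (congrArg Subtype.val h1).symm
    · push Not at hB
      have h1 : zpowers e ≤ L := by rwa [zpowers_le]
      refine (h.local_analysis hLn hLs hna hC hKL he he1 ?_).1 heL
      intro f hf hfL
      rw [sup_eq_left.mpr h1] at hfL
      by_cases hf1 : f = 1
      · exact Or.inl hf1
      · exact Or.inr (hB f hf hfL hf1)
  · push Not at hA
    obtain ⟨e, he, f, hf, he1, hf1, hef⟩ := h4
    have hee := h.c.sq e he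
    have hff := h.c.sq f hf
    have hcomm := h.c.E_comm he hf
    have hef1 : e * f ≠ 1 := by
      intro h2
      apply hef
      rw [← hff] at h2
      exact mul_right_cancel h2
    obtain ⟨-, hk⟩ := h.local_analysis hLn hLs hna hC hKL he he1 (by
      intro g hg hgL
      rcases mem_sup_zpowers hLn hee hgL with h1 | h1
      · exact Or.inl (hA g hg h1)
      · right
        have h2 := hA _ (mul_mem hg he) h1
        rw [← hee] at h2
        exact mul_right_cancel h2)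
    rcases hk with ⟨F', _, _, q, hq, heven, hq4, hpsu⟩ | hk
    · obtain ⟨m, _, σ, _, -, -, ⟨p⟩⟩ := exists_par_of_psu hq heven hq4 hpsu
      have a : Act.Amb L := ⟨fun a i hi => hLn.conj_mem i hi a, fun x hx => by
        have h1 : x ∈ centralizer (L : Set G) := by
          rw [mem_centralizer_iff]
          exact fun y hy => (hx y hy).symm
        rwa [hC, mem_bot] at h1⟩
      rcases a.inner_three' p hee hff hcomm with h1 | h1 | h1
      · exact he1 (hA e he h1)
      · exact hf1 (hA f hf h1)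
      · exact hef1 (hA _ (mul_mem he hf) h1)
    · obtain ⟨P, S, hP, hS, hES, hPS, hT⟩ := h.exists_T hLn
      obtain ⟨A, B, hAB⟩ := exists_ab hk hT
      have key : ∀ g ∈ E, g ≠ 1 → cj g A = B := fun g hg hg1 =>
        h.swap hA hP inf_le_right (le_inf hPS (hP.le.trans hKL)) hAB hg hg1 (cj_inf_of_mem hLn (hES hg))
      have k1 := key e he he1
      have k2 := key f hf hf1
      have k3 := key (e * f) (mul_mem he hf) hef1
      rw [cj_mul, k2] at k3
      have k4 : cj e (cj e A) = A := by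
        rw [← cj_mul, hee]
        exact Cfsg.Agent.OddHalf.D4.RkEnd.Tools.cj_one A
      rw [k1, k3] at k4
      obtain ⟨x, hx, hxB⟩ := hAB.neA
      rw [← k4] at hx
      exact hxB hx

/-- `K` is normal in `G` if `|E| ≥ 4` and `O(G) = 1`. -/
theorem normal (h : Hyp E K F n) (h4 : ∃ e ∈ E, ∃ f ∈ E, e ≠ 1 ∧ f ≠ 1 ∧ e ≠ f)
    (hO : Cfsg.oddCore G = ⊥) : K.Normal := by
  obtain ⟨t, ht, ht1⟩ := h.c.ne
  have hord : orderOf t = 2 := orderOf_eq_prime (by rw [pow_two]; exact h.c.sq t ht) ht1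
  have htC := h.c.E_le ht
  by_contra hnn
  have h2 : Cfsg.pCore 2 G = ⊥ := by
    by_contra h0
    exact hnn (StandardTrichotomy.normal_of_pCore_ne_bot h.isStandard hord htC h0)
  have hC := StandardTrichotomy.centralizer_layer_eq_bot hO h2
  rcases Cfsg.Agent.S1347.result K h.isStandard hO t hord htC with h1 | h1 | h1
  · exact hnn h1
  · obtain ⟨X, -, -, -, -, -, -, h8⟩ := h1
    have hE : ∀ e ∈ E, e ≠ 1 → e = t := by
      intro e he he1
      have h9 : e ∈ zpowers t := by rw [← h8]; exact h.c.E_le he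
      rcases mem_sup_zpowers (L := ⊥) inferInstance (h.c.sq t ht) (mem_sup_right h9) with h10 | h10
      · exact absurd (mem_bot.mp h10) he1
      · rw [mem_bot, ← h.c.sq t ht] at h10
        exact mul_right_cancel h10
    obtain ⟨e, he, f, hf, he1, hf1, hef⟩ := h4
    exact hef ((hE e he he1).trans (hE f hf hf1).symm)
  · obtain ⟨hKL, hLs, hna⟩ := h1
    exact false_of_layer h h4 (Components.layer_normal G) hLs hna hC hKL

end Cfsg.Agent.H337.UThreeFour
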