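import Cfsg.Prelude.Def_TwoFusion
import Cfsg.Prelude.Def_Transfer
import Cfsg.Agent.H337.UThreeQuot

/-!
# The hypotheses of S3314 and S3151 imply `Cfg E U₀` and `t ∈ E`
-/

set_option autoImplicit false

namespace Cfsg.Agent.H337.UThreeHyp

open Subgroup Cfsg.Agent.OddHalf.D4.Basic
open Cfsg.Agent.H298.UThree

universe u v

variable {G : Type u} [Group G] [Finite G]

theorem cfg_of_hyp (t : G) (ht : orderOf t = 2) (E U U₀ : Subgroup G)
    (hEU : Cfsg.IsInternalDirectProduct E U (Subgroup.centralizer ({t} : Set G)))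
    (hE : Cfsg.IsElementaryAbelian 2 E) (hE1 : E ≠ ⊥)
    (hU₀ : U₀ ≤ U) (hU₀n : (U₀.subgroupOf U).Normal) (hq : Cfsg.IsQuasisimple ↥U₀)
    {F : Type v} [Field F] [Fintype F] (n : ℕ) (hn : 2 ≤ n) (hF : Fintype.card F = 4 ^ n)
    (hUX : Nonempty ((↥U₀ ⧸ Subgroup.center ↥U₀) ≃* Cfsg.PSU 3 F (2 ^ n)))
    (hCU : U ⊓ Subgroup.centralizer (U₀ : Set G) = (Subgroup.center ↥U₀).map U₀.subtype)
    (hC : ∀ e ∈ E, orderOf e = 2 → Subgroup.centralizer ({e} : Set G) = Subgroup.centralizer ({t} : Set G)) :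
    Cfg E U₀ ∧ t ∈ E := by
  obtain ⟨hE2, hU2, hcomm, hinf, hsup⟩ := hEU
  have hsq : ∀ e ∈ E, e * e = 1 := by
    intro e he
    rw [← pow_two]
    exact hE.2 e he
  have hord : ∀ e ∈ E, e ≠ 1 → orderOf e = 2 := fun e he he1 =>
    orderOf_eq_prime (by rw [pow_two]; exact hsq e he) he1
  have hCC : ∀ e ∈ E, e ≠ 1 → ∀ x : G, x * e = e * x → x ∈ centralizer ({t} : Set G) := by
    intro e he he1 x hx
    rw [← hC e he (hord e he he1), mem_centralizer_iff]
    intro y hy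
    rw [Set.mem_singleton_iff.mp hy]
    exact hx.symm
  -- elements of `C(t)`
  have hEc : ∀ e ∈ E, ∀ f ∈ E, e * f = f * e := fun e he f hf =>
    congrArg Subtype.val (hE.1.is_comm.comm (⟨e, he⟩ : ↥E) ⟨f, hf⟩)
  have hdec : ∀ x ∈ centralizer ({t} : Set G), ∃ f ∈ E, ∃ u ∈ U, x = f * u := by
    intro x hx
    rw [← hsup] at hx
    have h1 : ∀ f ∈ E, ∀ u ∈ U, f * u = u * f := hcomm
    let S : Subgroup G :=
      { carrier := {x | ∃ f ∈ E, ∃ u ∈ U, x = f * u}
        one_mem' := ⟨1, one_mem _, 1, one_mem _, (mul_one 1).symm⟩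
        mul_mem' := by
          rintro _ _ ⟨f, hf, u, hu, rfl⟩ ⟨f', hf', u', hu', rfl⟩
          refine ⟨f * f', mul_mem hf hf', u * u', mul_mem hu hu', ?_⟩
          calc f * u * (f' * u') = f * (u * f') * u' := by group
            _ = f * (f' * u) * u' := by rw [h1 f' hf' u hu]
            _ = f * f' * (u * u') := by group
        inv_mem' := by
          rintro _ ⟨f, hf, u, hu, rfl⟩
          refine ⟨f⁻¹, inv_mem hf, u⁻¹, inv_mem hu, ?_⟩
          rw [mul_inv_rev]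
          exact (h1 f⁻¹ (inv_mem hf) u⁻¹ (inv_mem hu)).symm }
    have h2 : E ⊔ U ≤ S := sup_le (fun f hf => ⟨f, hf, 1, one_mem _, (mul_one f).symm⟩)
      (fun u hu => ⟨1, one_mem _, u, hu, (one_mul u).symm⟩)
    exact h2 hx
  have hfc : ∀ f ∈ E, ∀ x ∈ centralizer ({t} : Set G), x * f = f * x := by
    intro f hf x hx
    obtain ⟨f', hf', u, hu, rfl⟩ := hdec x hx
    calc f' * u * f = f' * (u * f) := by group
      _ = f' * (f * u) := by rw [hcomm f hf u hu]
      _ = (f' * f) * u := by group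
      _ = f * (f' * u) := by rw [hEc f' hf' f hf]; group
  have hn' : ∀ x ∈ centralizer ({t} : Set G), ∀ k ∈ U₀, x * k * x⁻¹ ∈ U₀ := by
    intro x hx k hk
    obtain ⟨f, hf, u, hu, rfl⟩ := hdec x hx
    have h1 : u * k * u⁻¹ ∈ U₀ := mem_subgroupOf.mp (hU₀n.conj_mem ⟨k, hU₀ hk⟩ (mem_subgroupOf.mpr hk) ⟨u, hu⟩)
    have h2 := hcomm f hf _ (hU₀ h1)
    have h3 : f * u * k * (f * u)⁻¹ = u * k * u⁻¹ := by
      calc f * u * k * (f * u)⁻¹ = (f * (u * k * u⁻¹)) * f⁻¹ := by group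
        _ = (u * k * u⁻¹ * f) * f⁻¹ := by rw [h2]
        _ = _ := by group
    rw [h3]
    exact h1
  have hcK : ∀ x ∈ centralizer ({t} : Set G), x ∈ centralizer (U₀ : Set G) →
      ∃ f ∈ E, ∃ w ∈ U₀, w ∈ centralizer (U₀ : Set G) ∧ x = f * w := by
    intro x hx hxK
    obtain ⟨f, hf, u, hu, rfl⟩ := hdec x hx
    have h1 : u ∈ centralizer (U₀ : Set G) := by
      rw [mem_centralizer_iff]
      intro k hk
      have h2 := mem_centralizer_iff.mp hxK k hk
      have h3 := hcomm f hf k (hU₀ hk)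
      calc k * u = f⁻¹ * (f * k) * u := by group
        _ = f⁻¹ * (k * f) * u := by rw [h3]
        _ = f⁻¹ * (k * (f * u)) := by group
        _ = f⁻¹ * (f * u * k) := by rw [h2]
        _ = u * k := by group
    have h2 : u ∈ (Subgroup.center ↥U₀).map U₀.subtype := by
      rw [← hCU]
      exact mem_inf.mpr ⟨hu, h1⟩
    obtain ⟨w, -, rfl⟩ := h2
    exact ⟨f, hf, w, w.2, h1, rfl⟩
  have hodd := UThreeQuot.odd_center hq hn hF hUX
  have c : Cfg E U₀ := by
    refine ⟨?_, hsq, ?_, fun e he k hk => hcomm e he k (hU₀ hk), ?_, ?_, hq, hodd⟩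
    · by_contra hcon
      push Not at hcon
      exact hE1 ((eq_bot_iff_forall E).mpr hcon)
    · intro e he he1 f hf x hx
      exact hfc f hf x (hCC e he he1 x hx)
    · intro e he he1 x hx k hk
      exact hn' x (hCC e he he1 x hx) k hk
    · intro e he he1 x hx hxK
      exact hcK x (hCC e he he1 x hx) hxK
  refine ⟨c, ?_⟩
  -- `t ∈ E`
  have htC : t ∈ centralizer ({t} : Set G) := by
    rw [mem_centralizer_iff]
    intro y hy
    rw [Set.mem_singleton_iff.mp hy]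
  have htt : t * t = 1 := by rw [← pow_two, ← ht, pow_orderOf_eq_one]
  have htK : t ∈ centralizer (U₀ : Set G) := by
    rw [mem_centralizer_iff]
    intro k hk
    exact (mem_centralizer_iff.mp (hU2 (hU₀ hk)) t rfl).symm
  obtain ⟨e, he, he1⟩ := c.ne
  exact c.mem_E he he1 (hfc e he t htC) htK (Two.of_sq htt)

end Cfsg.Agent.H337.UThreeHyp
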